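import Cfsg.Agent.Lib.Helper35.Fi22b.PChk1

namespace Cfsg.Agent.Lib.Helper35.Fi22b

open Cfsg.Agent.Lib.Helper35

theorem hsub : allBelow (fixAll sl) 1 = true := by decide +kernel

noncomputable def permData : PermData PresFi22.cc.C PresFi22.cc.inv PresFi22.R S 14079 where
  pt := pt
  hinvC := PresFi22.hinvC
  hinv2 := PresFi22.hinv2
  hinvE := PresFi22.hinvE
  hchk := by
    intro c hc
    have hc' : c < 9 := hc
    interval_cases c
    exacts [c0u0, c1u0, c2u0, c3u0, c4u0, c5u0, c6u0, c7u0, c8u0]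
  hrel := fix_of_leaves' rl 14080 ru134
  hsub := fun b hb => fix_of_leaves sl 1 hsub b hb 0 (by decide)
  hRC := PresFi22.hRC
  hSC := by decide +kernel
  tp := tp
  cK := 16
  htree := tu1

end Cfsg.Agent.Lib.Helper35.Fi22b
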